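import Cfsg.Agent.Z6.Pt

/-! The pattern of the decomposition numbers in the wreathed case. -/

set_option autoImplicit false
set_option linter.unusedVariables false
set_option linter.unusedSectionVars false

namespace CK

open Z6

variable {ι : Type*} [DecidableEq ι] {B : Finset ι} {n p q d : ι → ℤ}

theorem bd3 (h : ∑ x ∈ B, n x * n x ≤ 3) {x : ι} (hx : x ∈ B) : n x * n x ≤ 3 := by
  have := le_l (n := n) (B := B) (l := [x]) (by simp) (by simpa)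
  simp only [List.map_cons, List.sum_cons, List.map_nil, List.sum_nil] at this
  omega

theorem S3 {R : Type*} [CommRing R] {a b c : ι} (ha : a ∈ B) (hb : b ∈ B) (hc : c ∈ B) (e1 : b ≠ a)
    (e2 : c ≠ a) (e3 : c ≠ b) (h : ∀ x ∈ B, x ≠ a → x ≠ b → x ≠ c → n x = 0) (Φ : ι → R) :
    ∑ x ∈ B, n x * Φ x = n a * Φ a + (n b * Φ b + n c * Φ c) := by
  simpa using sum_l (n := n) (B := B) (l := [a, b, c]) (by simp [e1.symm, e2.symm, e3.symm])
    (by simp [ha, hb, hc]) (fun x hx h' => by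
      simp only [List.mem_cons, List.not_mem_nil, or_false, not_or] at h'
      exact h x hx h'.1 h'.2.1 h'.2.2) Φ

theorem four_pts (h : ∑ x ∈ B, n x * n x = 3) {a b c x : ι} (ha : a ∈ B) (hb : b ∈ B) (hc : c ∈ B)
    (hx : x ∈ B) (e1 : b ≠ a) (e2 : c ≠ a) (e3 : c ≠ b) (a0 : n a ≠ 0) (b0 : n b ≠ 0) (c0 : n c ≠ 0)
    (x0 : n x ≠ 0) (x1 : x ≠ a) (x2 : x ≠ b) : x = c := by
  by_contra x3
  refine x0 (eq_l (l := [a, b, c]) (by simp [e1.symm, e2.symm, e3.symm]) (by simp [ha, hb, hc]) ?_ x hx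
    (by simp [x1, x2, x3]))
  simp [h, sq_one a0 (bd3 h.le ha), sq_one b0 (bd3 h.le hb), sq_one c0 (bd3 h.le hc)]

theorem cp (hp : ∑ x ∈ B, p x * p x = 3) (hq : ∑ x ∈ B, q x * q x = 3)
    (h : ∑ x ∈ B, p x * q x = 1) (d0 : ∀ x ∈ B, d x ≠ 0) (pd : ∑ x ∈ B, p x * d x = 0)
    (qd : ∑ x ∈ B, q x * d x = 0) :
    ∃ x ∈ B, p x ≠ 0 ∧ q x ≠ 0 ∧ ∀ y ∈ B, p y ≠ 0 → q y ≠ 0 → y = x := by
  obtain ⟨a, ha, a1⟩ : ∃ a ∈ B, p a * q a ≠ 0 := Finset.exists_ne_zero_of_sum_ne_zero (by omega)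
  have pa := left_ne_zero_of_mul a1
  have qa := right_ne_zero_of_mul a1
  refine ⟨a, ha, pa, qa, fun y hy py qy => ?_⟩
  by_contra ya
  obtain ⟨c, hc, c1, c2⟩ := ex_l (n := p) (B := B) (l := [a, y]) (by simpa using Ne.symm ya)
    (by simp [ha, hy]) (by simp [hp, sq_one pa (bd3 hp.le ha), sq_one py (bd3 hp.le hy)])
  simp only [List.mem_cons, List.not_mem_nil, or_false, not_or] at c1
  have z : ∀ x ∈ B, x ≠ a → x ≠ y → x ≠ c → p x = 0 := fun x hx e1 e2 e3 => by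
    by_contra e; exact e3 (four_pts hp ha hy hc hx ya c1.1 c1.2 pa py c2 e e1 e2)
  have s1 := S3 ha hy hc ya c1.1 c1.2 z q
  have s2 := S3 ha hy hc ya c1.1 c1.2 z d
  have p1 := pm (sq_one pa (bd3 hp.le ha))
  have p2 := pm (sq_one py (bd3 hp.le hy))
  have p3 := pm (sq_one c2 (bd3 hp.le hc))
  have q1 := pm (sq_one qa (bd3 hq.le ha))
  have q2 := pm (sq_one qy (bd3 hq.le hy))
  simp only [Int.cast_id, h, pd] at s1 s2
  have qc : q c ≠ 0 := fun e => by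
    rcases p1 with e1 | e1 <;> rcases p2 with e2 | e2 <;> rw [e1, e2, e] at s1 <;> omega
  have q3 := pm (sq_one qc (bd3 hq.le hc))
  have s3 := S3 (n := q) ha hy hc ya c1.1 c1.2 (fun x hx e1 e2 e3 => by
    by_contra e; exact e3 (four_pts hq ha hy hc hx ya c1.1 c1.2 qa qy qc e e1 e2)) d
  simp only [Int.cast_id, qd] at s3
  have := d0 a ha
  have := d0 y hy
  have := d0 c hc
  rcases p1 with e1 | e1 <;> rcases p2 with e2 | e2 <;> rcases p3 with e3 | e3 <;>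
    rcases q1 with f1 | f1 <;> rcases q2 with f2 | f2 <;> rcases q3 with f3 | f3 <;>
    rw [e1, e2, e3] at s1 s2 <;> rw [f1, f2, f3] at s1 s3 <;> omega

theorem pat1 {o : ι} (ho : o ∈ B) {u : ι → ℤ} {v : Fin 4 → ι → ℤ} (d0 : ∀ x ∈ B, d x ≠ 0)
    (uu : ∑ x ∈ B, u x * u x = 2) (vv : ∀ a b, ∑ x ∈ B, v a x * v b x = if a = b then 3 else 1)
    (uv : ∀ a, ∑ x ∈ B, u x * v a x = 1) (vo : ∀ a, v a o = if a = 0 then 1 else 0) (uo : u o = 0)
    (vd : ∀ a, ∑ x ∈ B, v a x * d x = 0) : ∃ X ∈ B, ∃ X' ∈ B, X' ≠ X ∧ u X * u X = 1 ∧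
      u X' * u X' = 1 ∧ (∀ x ∈ B, x ≠ X → x ≠ X' → u x = 0) ∧ (∀ a, v a X = u X ∧ v a X' = 0) ∧
      ∀ a b, a ≠ b → ∀ y ∈ B, v a y ≠ 0 → v b y ≠ 0 → y = X := by
  have v3 : ∀ a, ∑ x ∈ B, v a x * v a x = 3 := fun a => by rw [vv, if_pos rfl]
  have c := fun a b (e : a ≠ b) => cp (v3 a) (v3 b) (by rw [vv, if_neg e]) d0 (vd a) (vd b)
  have uq : ∀ a b, a ≠ b → ∀ x ∈ B, ∀ y ∈ B, v a x ≠ 0 → v b x ≠ 0 → v a y ≠ 0 → v b y ≠ 0 →
      y = x := fun a b e x hx y hy h1 h2 h3 h4 => by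
    obtain ⟨t, -, -, -, h⟩ := c a b e
    rw [h x hx h1 h2, h y hy h3 h4]
  obtain ⟨X, hX, X', hX', ne, e1, e2, z, ty, t0⟩ : ∃ X ∈ B, ∃ X' ∈ B, X' ≠ X ∧ u X * u X = 1 ∧
      u X' * u X' = 1 ∧ (∀ x ∈ B, x ≠ X → x ≠ X' → u x = 0) ∧
      (∀ a, v a X = u X ∧ v a X' = 0 ∨ v a X = 0 ∧ v a X' = u X') ∧ v 0 X = u X ∧ v 0 X' = 0 := by
    obtain ⟨a, ha, -, a1⟩ := ex_l (n := u) (B := B) (l := []) (by simp) (by simp) (by simp [uu])
    have a2 := sq_one a1 (bd3 (by omega) ha)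
    obtain ⟨b, hb, b0, b1⟩ := ex_l (n := u) (B := B) (l := [a]) (by simp) (by simpa) (by simp [uu, a2])
    have b2 := sq_one b1 (bd3 (by omega) hb)
    have nd : [a, b].Nodup := by simpa [eq_comm] using b0
    have z := eq_l (n := u) (B := B) nd (by simp [ha, hb]) (by simp [uu, a2, b2])
    have ty : ∀ k, v k a = u a ∧ v k b = 0 ∨ v k a = 0 ∧ v k b = u b := fun k => by
      have := sum_l nd (by simp [ha, hb]) z (v k)
      simp only [Int.cast_id, uv, List.map_cons, List.sum_cons, List.map_nil, List.sum_nil] at this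
      exact ar1 a2 b2 (bd3 (v3 k).le ha) (bd3 (v3 k).le hb) (by omega)
    simp only [List.mem_cons, List.not_mem_nil, or_false, not_or, and_imp] at z b0
    rcases ty 0 with h | h
    · exact ⟨a, ha, b, hb, b0, a2, b2, z, ty, h⟩
    · exact ⟨b, hb, a, ha, Ne.symm b0, b2, a2, fun x hx e1 e2 => z x hx e2 e1,
        fun k => (ty k).symm.imp And.symm And.symm, h.symm⟩
  have n1 : u X ≠ 0 := left_ne_zero_of_mul (e1 ▸ one_ne_zero)
  have n2 : u X' ≠ 0 := left_ne_zero_of_mul (e2 ▸ one_ne_zero)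
  have oX : o ≠ X := fun e => n1 (e ▸ uo)
  have all : ∀ a, v a X = u X ∧ v a X' = 0 := fun a => (ty a).resolve_right fun ha => by
    have a0 : a ≠ 0 := fun e => n1 (by rw [← t0.1, ← e, ha.1])
    obtain ⟨P, hP, P0, Pa, -⟩ := c 0 a a0.symm
    have PX : P ≠ X := fun e => Pa (e ▸ ha.1)
    have PX' : P ≠ X' := fun e => P0 (e ▸ t0.2)
    have Po : P ≠ o := fun e => Pa (by rw [e, vo, if_neg a0])
    have k : ∀ b, b ≠ 0 → b ≠ a → v b X ≠ 0 ∧ ∃ r ∈ B, v b r ≠ 0 ∧ v a r ≠ 0 ∧ r ≠ X' ∧ r ≠ P :=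
      fun b b0 ba => by
      rcases ty b with h | h
      · obtain ⟨r, hr, r1, r2, -⟩ := c b a ba
        refine ⟨h.1 ▸ n1, r, hr, r1, r2, fun e => r1 (e ▸ h.2), fun e => PX ?_⟩
        exact uq b 0 b0 X hX P hP (h.1 ▸ n1) (t0.1 ▸ n1) (e ▸ r1) P0
      · obtain ⟨r, hr, r1, r2, -⟩ := c 0 b b0.symm
        obtain rfl := four_pts (v3 0) hX ho hP hr oX PX Po (t0.1 ▸ n1) (by simp [vo]) P0 r1
          (fun e => r2 (e ▸ h.1)) fun e => r2 (by rw [e, vo, if_neg b0])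
        exact absurd (uq b a ba X' hX' r hr (h.2 ▸ n2) (ha.2 ▸ n2) r2 Pa) PX'
    obtain ⟨b, c, b0, ba, c0, ca, bc⟩ : ∃ b c : Fin 4, b ≠ 0 ∧ b ≠ a ∧ c ≠ 0 ∧ c ≠ a ∧ b ≠ c := by
      revert a0; generalize a = a; revert a; decide
    obtain ⟨b1, r, hr, r1, r2, r3, r4⟩ := k b b0 ba
    obtain ⟨c1, t, ht, t1, t2, t3, t4⟩ := k c c0 ca
    obtain rfl := four_pts (v3 a) hX' hP hr ht PX' r3 r4 (ha.2 ▸ n2) Pa r2 t2 t3 t4
    exact r2 (uq b c bc X hX t ht b1 c1 r1 t1 ▸ ha.1)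
  exact ⟨X, hX, X', hX', ne, e1, e2, z, all, fun a b e y hy h1 h2 =>
    uq a b e X hX y hy ((all a).1 ▸ n1) ((all b).1 ▸ n1) h1 h2⟩

theorem odd1 {x e k : ℤ} (he : e * e = 1) (h : x = e + 2 * k) :
    e * x = 1 ∨ e * x = -1 ∨ 9 ≤ e * x * (e * x) := by
  by_cases h1 : e * x = 1
  · exact Or.inl h1
  by_cases h2 : e * x = -1
  · exact Or.inr (Or.inl h2)
  have : e * x ≤ -3 ∨ 3 ≤ e * x := by rcases pm he with rfl | rfl <;> omega
  exact Or.inr (Or.inr (by rcases this with h | h <;> nlinarith))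

theorem pair {x y k : ℤ} (h : x + y = -k) : k * k ≤ 2 * (x * x + y * y) := by
  obtain rfl : k = -x - y := by omega
  nlinarith [mul_self_nonneg (x - y)]

theorem pat2 {o : ι} (ho : o ∈ B) {u n5 n6 Q N Z : ι → ℤ} {v : Fin 4 → ι → ℤ}
    (d0 : ∀ x ∈ B, d x ≠ 0)
    (uu : ∑ x ∈ B, u x * u x = 2) (vv : ∀ a b, ∑ x ∈ B, v a x * v b x = if a = b then 3 else 1)
    (uv : ∀ a, ∑ x ∈ B, u x * v a x = 1) (vo : ∀ a, v a o = if a = 0 then 1 else 0) (uo : u o = 0)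
    (vd : ∀ a, ∑ x ∈ B, v a x * d x = 0)
    (H : ∀ n ∈ [n5, n6, Q, N], ∑ x ∈ B, u x * n x = 0 ∧ ∀ a, ∑ x ∈ B, v a x * n x = 0)
    (h5 : ∑ x ∈ B, n5 x * n5 x = 4) (h6 : ∑ x ∈ B, n6 x * n6 x = 4)
    (hQ : ∑ x ∈ B, Q x * Q x = 16) (hN : ∑ x ∈ B, N x * N x = 32)
    (hQ5 : ∑ x ∈ B, Q x * n5 x = 4) (o5 : n5 o = 0) (o6 : n6 o = 0) (oQ : Q o = 1)
    (par : ∀ x, ∃ k, Q x = v 0 x + v 1 x + v 2 x + v 3 x + 2 * k)
    (eN : ∀ x, N x = Q x - 2 * n5 x - 2 * n6 x)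
    (eZ : ∀ x, Z x = 3 * N x - 2 * (v 0 x + v 1 x + v 2 x + v 3 x - 2 * u x)) :
    ∃ P ∈ B, ∃ E ∈ B, ∃ F ∈ B, ∃ p e f : ℤ, p * p = 1 ∧ e * e = 1 ∧ f * f = 1 ∧ P ≠ o ∧ E ≠ o ∧
      F ≠ o ∧ (v 0 P = p ∧ v 1 P = 0 ∧ v 2 P = 0 ∧ v 3 P = 0 ∧ Q P = -p ∧ Z P = -5 * p) ∧
      Z E = -5 * e ∧ Z F = f ∧ ∃ a, ∀ Φ : ι → ℂ, ∑ x ∈ B, v 0 x * Φ x - ∑ x ∈ B, v a x * Φ x =
        Φ o + p * Φ P - e * Φ E - f * Φ F := by
  obtain ⟨X, hX, X', hX', ne, e1, e2, z, all, uq⟩ := pat1 ho d0 uu vv uv vo uo vd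
  have n1 : u X ≠ 0 := left_ne_zero_of_mul (e1 ▸ one_ne_zero)
  have oX : o ≠ X := fun e => n1 (e ▸ uo)
  have ex : ∀ a, ∃ r ∈ B, ∃ r' ∈ B, r ≠ X ∧ r' ≠ X ∧ r' ≠ r ∧ v a r * v a r = 1 ∧
      v a r' * v a r' = 1 ∧ (∀ x ∈ B, x ≠ X → x ≠ r → x ≠ r' → v a x = 0) ∧ (a = 0 → r = o) :=
    fun a => by
    obtain ⟨r, hr, r', hr', h1, h2, h3, h4, h5, h6⟩ := supp3 (n := v a) hX (by rw [(all a).1, e1])
      (by rw [vv, if_pos rfl])
    by_cases e : o = r'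
    · exact ⟨r', hr', r, hr, h2, h1, h3.symm, h5, h4, fun x hx a b c => h6 x hx a c b, fun _ => e.symm⟩
    · refine ⟨r, hr, r', hr', h1, h2, h3, h4, h5, h6, fun a0 => ?_⟩
      by_contra e'
      simpa [vo, a0] using h6 o ho oX (Ne.symm e') e
  choose R hR R' hR' RX RX1 RR r1 r2 zv R0 using ex
  have R0 := R0 0 rfl
  have s1 : ∀ a, v a (R a) ≠ 0 := fun a => left_ne_zero_of_mul (r1 a ▸ one_ne_zero)
  have s2 : ∀ a, v a (R' a) ≠ 0 := fun a => left_ne_zero_of_mul (r2 a ▸ one_ne_zero)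
  have t1 : ∀ a b, a ≠ b → v b (R a) = 0 := fun a b e => by
    by_contra h; exact RX a (uq a b e _ (hR a) (s1 a) h)
  have t2 : ∀ a b, a ≠ b → v b (R' a) = 0 := fun a b e => by
    by_contra h; exact RX1 a (uq a b e _ (hR' a) (s2 a) h)
  have i1 : ∀ a b, R a = R b ↔ a = b := fun a b =>
    ⟨fun e => by by_contra h; exact s1 b (e ▸ t1 a b h), fun e => e ▸ rfl⟩
  have i2 : ∀ a b, R' a = R' b ↔ a = b := fun a b =>
    ⟨fun e => by by_contra h; exact s2 b (e ▸ t2 a b h), fun e => e ▸ rfl⟩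
  have i3 : ∀ a b, R a ≠ R' b := fun a b e => by
    by_cases h : a = b
    · exact RR b (h ▸ e.symm)
    · exact s2 b (e ▸ t1 a b h)
  have i4 : ∀ a, R a ≠ X' := fun a e => s1 a (e ▸ (all a).2)
  have i5 : ∀ a, R' a ≠ X' := fun a e => s2 a (e ▸ (all a).2)
  have nd : [X, X', R 0, R' 0, R 1, R' 1, R 2, R' 2, R 3, R' 3].Nodup := by
    simp [i1, i2, i3, (i3 _ _).symm, (i4 _).symm, (i5 _).symm, (RX _).symm, (RX1 _).symm, ne.symm]
  have hl : ∀ x ∈ [X, X', R 0, R' 0, R 1, R' 1, R 2, R' 2, R 3, R' 3], x ∈ B := by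
    simp [hX, hX', hR, hR']
  have sq : ∀ {e : ℤ} (x : ℤ), e * e = 1 → x * x = e * x * (e * x) := fun x h => by
    linear_combination (-x * x) * h
  have v00 : v 0 (R 0) = 1 := by rw [R0, vo, if_pos rfl]
  have key : ∀ n ∈ [n5, n6, Q, N], u X' * n X' = -(u X * n X) ∧
      (∀ a, v a (R a) * n (R a) + v a (R' a) * n (R' a) = -(u X * n X)) ∧
      2 * (u X * n X * (u X * n X)) + ∑ a, (v a (R a) * n (R a) * (v a (R a) * n (R a)) +
        v a (R' a) * n (R' a) * (v a (R' a) * n (R' a))) =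
        ([X, X', R 0, R' 0, R 1, R' 1, R 2, R' 2, R 3, R' 3].map fun x => n x * n x).sum :=
    fun n hn => by
    have a1 := sum_l (n := u) (B := B) (l := [X, X']) (by simpa using ne.symm) (by simp [hX, hX'])
      (fun x hx h => by simp only [List.mem_cons, List.not_mem_nil, or_false, not_or] at h
                        exact z x hx h.1 h.2) n
    simp only [Int.cast_id, (H n hn).1, List.map_cons, List.sum_cons, List.map_nil, List.sum_nil] at a1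
    have a2 : u X' * n X' = -(u X * n X) := by omega
    refine ⟨a2, fun a => ?_, ?_⟩
    · have := S3 hX (hR a) (hR' a) (RX a) (RX1 a) (RR a) (zv a) n
      simp only [Int.cast_id, (H n hn).2, (all a).1] at this
      omega
    · simp only [← sq _ (r1 _), ← sq _ (r2 _), List.map_cons, List.sum_cons, List.map_nil,
        List.sum_nil, Fin.sum_univ_four, sq (n X') e2, a2, neg_mul_neg, ← sq _ e1]
      ring
  have k5 : ∀ n ∈ [n5, n6, Q, N], ∑ x ∈ B, n x * n x = 4 → n o = 0 → u X * n X = 0 :=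
    fun n hn h4 h0 => by
    obtain ⟨-, a2, a3⟩ := key n hn
    have a4 := a3.trans_le (le_l nd hl)
    have b0 := a2 0
    have b1 := pair (a2 1)
    have b2 := pair (a2 2)
    have b3 := pair (a2 3)
    rw [R0, h0, mul_zero, zero_add] at b0
    rw [Fin.sum_univ_four, h4, R0, h0, b0, neg_mul_neg] at a4
    exact mul_self_eq_zero.1 (by have := mul_self_nonneg (u X * n X); omega)
  have p1 : ∀ a, ∃ k, Q (R a) = v a (R a) + 2 * k := fun a => by
    obtain ⟨k, hk⟩ := par (R a)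
    exact ⟨k, by fin_cases a <;> simpa [t1] using hk⟩
  have p2 : ∀ a, ∃ k, Q (R' a) = v a (R' a) + 2 * k := fun a => by
    obtain ⟨k, hk⟩ := par (R' a)
    exact ⟨k, by fin_cases a <;> simpa [t2] using hk⟩
  have c5 := k5 n5 (by simp) h5 o5
  have c6 := k5 n6 (by simp) h6 o6
  have cQ : u X * Q X = 0 := by
    obtain ⟨a1, a2, a3⟩ := key Q (by simp)
    have a4 := a3.trans_le (le_l nd hl)
    have b := fun a => (p1 a).elim fun k hk => odd1 (r1 a) hk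
    have b' := fun a => (p2 a).elim fun k hk => odd1 (r2 a) hk
    have c : ∀ a, 1 ≤ v a (R a) * Q (R a) * (v a (R a) * Q (R a)) := fun a => by
      rcases b a with h | h | h <;> [rw [h]; rw [h]; skip] <;> omega
    have c' : ∀ a, 1 ≤ v a (R' a) * Q (R' a) * (v a (R' a) * Q (R' a)) := fun a => by
      rcases b' a with h | h | h <;> [rw [h]; rw [h]; skip] <;> omega
    have c0 := a2 0
    rw [v00, R0, oQ] at c0
    have := c 0; have := c 1; have := c 2; have := c 3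
    have := c' 0; have := c' 1; have := c' 2; have := c' 3
    rw [Fin.sum_univ_four, hQ] at a4
    obtain ⟨k, hk⟩ := par X
    simp only [all] at hk
    have : u X * Q X = 0 ∨ u X * Q X = 2 ∨ u X * Q X = -2 := by
      have b1 : -3 < u X * Q X := by nlinarith
      have b2 : u X * Q X < 3 := by nlinarith
      rcases pm e1 with h | h <;> rw [h] at b1 b2 hk ⊢ <;> omega
    rcases this with h | h | h
    · exact h
    · have : v 0 (R' 0) * Q (R' 0) = -3 := by omega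
      rw [h, this] at a4; omega
    · have s5 := sum_l nd hl (eq_l nd hl (by rw [← a3, Fin.sum_univ_four, hQ]; rw [h] at a4 ⊢; omega)) n5
      have f : ∀ a, Q (R a) * n5 (R a) + Q (R' a) * n5 (R' a) = 0 := fun a => by
        have g1 : v a (R a) * Q (R a) * (v a (R a) * Q (R a)) = 1 ∧
          v a (R' a) * Q (R' a) * (v a (R' a) * Q (R' a)) = 1 := by
          rw [h] at a4; fin_cases a <;> simp only [Fin.reduceFinMk, Fin.zero_eta, Fin.mk_one] <;> omega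
        have g2 := a2 a
        have g3 : v a (R a) * Q (R a) = 1 := by have := pm g1.1; have := pm g1.2; omega
        have g4 : v a (R' a) * Q (R' a) = 1 := by omega
        have g5 := (key n5 (by simp)).2.1 a
        linear_combination g5 - c5 + (v a (R a) * n5 (R a)) * g3 + (v a (R' a) * n5 (R' a)) * g4 -
          (Q (R a) * n5 (R a)) * r1 a - (Q (R' a) * n5 (R' a)) * r2 a
      have g1 : n5 X = 0 := (mul_eq_zero.1 c5).resolve_left n1
      have g2 : n5 X' = 0 := by linear_combination (u X') * (key n5 (by simp)).1 - u X' * c5 - n5 X' * e2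
      simp only [Int.cast_id, hQ5, List.map_cons, List.sum_cons, List.map_nil, List.sum_nil, g1, g2] at s5
      have := f 0; have := f 1; have := f 2; have := f 3
      omega
  obtain ⟨-, a2, a3⟩ := key N (by simp)
  have cN : u X * N X = 0 := by rw [eN]; linear_combination cQ - 2 * c5 - 2 * c6
  have a4 := a3.trans_le (le_l nd hl)
  have a5 : ∀ a, v a (R' a) * N (R' a) = -(v a (R a) * N (R a)) := fun a => by
    have := a2 a; omega
  have N0 : N (R 0) = 1 := by rw [eN, R0, oQ, o5, o6]; rfl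
  simp only [Fin.sum_univ_four, a5, neg_mul_neg, hN, cN, v00, N0] at a4
  have b : ∀ a, _ := fun a => (p1 a).elim fun k hk => odd1 (x := N (R a)) (k := k - n5 (R a) - n6 (R a))
    (r1 a) (by rw [eN, hk]; ring)
  obtain ⟨a, a0, ha⟩ : ∃ a, a ≠ 0 ∧ (v a (R a) * N (R a) = 1 ∨ v a (R a) * N (R a) = -1) := by
    by_contra hn
    push Not at hn
    have := ((b 1).resolve_left (hn 1 (by decide)).1).resolve_left (hn 1 (by decide)).2
    have := ((b 2).resolve_left (hn 2 (by decide)).1).resolve_left (hn 2 (by decide)).2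
    have := mul_self_nonneg (v 3 (R 3) * N (R 3))
    omega
  have z1 : ∀ a, Z (R a) = 3 * N (R a) - 2 * v a (R a) := fun a => by
    rw [eZ, z _ (hR a) (RX a) (i4 a)]; fin_cases a <;> simp [t1]
  have z2 : ∀ a, Z (R' a) = 3 * N (R' a) - 2 * v a (R' a) := fun a => by
    rw [eZ, z _ (hR' a) (RX1 a) (i5 a)]; fin_cases a <;> simp [t2]
  have S : ∀ Φ : ι → ℂ, ∑ x ∈ B, v 0 x * Φ x - ∑ x ∈ B, v a x * Φ x =
      Φ o + v 0 (R' 0) * Φ (R' 0) - v a (R a) * Φ (R a) - v a (R' a) * Φ (R' a) := fun Φ => by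
    rw [S3 hX (hR 0) (hR' 0) (RX 0) (RX1 0) (RR 0) (zv 0),
      S3 hX (hR a) (hR' a) (RX a) (RX1 a) (RR a) (zv a), (all 0).1, (all a).1, v00, R0]
    push_cast; ring
  have P1 : v 0 (R' 0) * Q (R' 0) = -1 := by
    have := (key Q (by simp)).2.1 0
    rw [v00, R0, oQ] at this; omega
  have P2 := a5 0
  rw [v00, N0] at P2
  have hP : v 0 (R' 0) = v 0 (R' 0) ∧ v 1 (R' 0) = 0 ∧ v 2 (R' 0) = 0 ∧ v 3 (R' 0) = 0 ∧
      Q (R' 0) = -v 0 (R' 0) ∧ Z (R' 0) = -5 * v 0 (R' 0) :=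
    ⟨rfl, t2 _ _ (by decide), t2 _ _ (by decide), t2 _ _ (by decide),
      by linear_combination v 0 (R' 0) * P1 - Q (R' 0) * r2 0,
      by linear_combination z2 0 + 3 * v 0 (R' 0) * P2 - 3 * N (R' 0) * r2 0⟩
  have o1 : R a ≠ o := fun e => a0 ((i1 a 0).1 (e.trans R0.symm))
  have o2 : ∀ a, R' a ≠ o := fun a e => i3 0 a (R0.trans e.symm)
  have a6 := a5 a
  rcases ha with h | h
  · refine ⟨_, hR' 0, _, hR' a, _, hR a, _, _, _, r2 0, r2 a, r1 a, o2 0, o2 a, o1, hP, ?_, ?_, a,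
      fun Φ => by rw [S]; ring⟩
    · linear_combination z2 a + 3 * v a (R' a) * a6 - 3 * v a (R' a) * h - 3 * N (R' a) * r2 a
    · linear_combination z1 a + 3 * v a (R a) * h - 3 * N (R a) * r1 a
  · refine ⟨_, hR' 0, _, hR a, _, hR' a, _, _, _, r2 0, r1 a, r2 a, o2 0, o1, o2 a, hP, ?_, ?_, a, S⟩
    · linear_combination z1 a + 3 * v a (R a) * h - 3 * N (R a) * r1 a
    · linear_combination z2 a + 3 * v a (R' a) * a6 - 3 * v a (R' a) * h - 3 * N (R' a) * r2 a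

theorem numer2 {s e f : ℤ} (s0 : s ≠ 0) (e0 : e ≠ 0) (f0 : f ≠ 0) (f1 : f ≠ 1)
    (h1 : 1 - s - e - f = 0) (h : (1 - 25 / s : ℂ) = 25 / e + 1 / f) : (s - 25) * (e - 25) = 600 := by
  have h5 : (s - 25) * e * f = s * (25 * f + e) := by
    have f1 : (f : ℂ) ≠ 0 := Int.cast_ne_zero.2 f0
    have g1 : (s : ℂ) ≠ 0 := Int.cast_ne_zero.2 s0
    have k1 : (e : ℂ) ≠ 0 := Int.cast_ne_zero.2 e0
    field_simp at h
    exact_mod_cast h
  obtain rfl : f = 1 - s - e := by omega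
  have h6 : (e + s) * ((s - 25) * (e - 25) - 600) = 0 := by linear_combination -h5
  have := (mul_eq_zero.1 h6).resolve_left (by omega)
  omega

theorem numer3 {s e α k : ℤ} (h : (s - 25) * (e - 25) = 600) (hs : 37 ≤ s ∨ s ≤ -37)
    (he : 47 ≤ e ∨ e ≤ -37) : 0 < s ∧ (s + 37 + 6 * (-1 + 6 * α) = 32 * k →
      |(-1 + 6 * α)| + 32 ≤ s → False) := by
  rcases hs with hs | hs <;> rcases he with he | he
  · refine ⟨by omega, fun h1 h2 => ?_⟩
    have : s ≤ 52 := by nlinarith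
    have := le_abs_self (-1 + 6 * α)
    have := neg_abs_le (-1 + 6 * α)
    interval_cases s <;> omega
  all_goals nlinarith

end CK
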